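import Cfsg.Agent.Lib.GLCuspidal.Def
import Cfsg.Agent.Lib.IBr.Generalized
import Cfsg.Agent.Lib.CharDegreesTheory.Galois
import Cfsg.Agent.Lib.CharDegreesTheory.GaloisC

/-!
# The lift of the eigenvalues is a generalized character
-/

set_option autoImplicit false
set_option linter.unusedSectionVars false
set_option linter.style.haveILetI false

namespace CfsgLib.GLCuspidal

open Cfsg Polynomial Module CfsgLib.IBr

variable {p : ℕ} {M : Ideal AlgInt} (S : PSys p M)

theorem isPrimitiveRoot_rootK : IsPrimitiveRoot S.rootK S.m := by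
  refine ⟨S.rootK_pow, fun l hl => ?_⟩
  by_contra hd
  have h := S.sum_rootK_pow hd
  simp only [hl, one_pow, Finset.sum_const, Finset.card_range, nsmul_eq_mul, mul_one] at h
  exact S.natCast_ne_zero S.hm h

open Classical in
/-- The lift of the roots of unity of order prime to `p`, extended by zero. -/
noncomputable def lift (x : S.K) : ℂ :=
  if h : ∃ j, S.rootK ^ j = x then S.root ^ h.choose else 0

theorem lift_rootK_pow (j : ℕ) : lift S (S.rootK ^ j) = S.root ^ j := by
  have h : ∃ i, S.rootK ^ i = S.rootK ^ j := ⟨j, rfl⟩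
  rw [lift, dif_pos h]
  haveI : NeZero S.m := ⟨S.m_pos.ne'⟩
  have h1 := h.choose_spec
  have e : h.choose % S.m = j % S.m := by
    have h2 : S.rootK ^ (h.choose % S.m) = S.rootK ^ (j % S.m) := by
      rw [← pow_eq_pow_mod _ S.rootK_pow, ← pow_eq_pow_mod _ S.rootK_pow, h1]
    exact (isPrimitiveRoot_rootK S).pow_inj (Nat.mod_lt _ S.m_pos) (Nat.mod_lt _ S.m_pos) h2
  rw [pow_eq_pow_mod _ S.isPrimitiveRoot_root.pow_eq_one, e,
    ← pow_eq_pow_mod _ S.isPrimitiveRoot_root.pow_eq_one]

theorem exists_pow_eq {x : S.K} (hx : x ^ S.m = 1) : ∃ j < S.m, S.rootK ^ j = x :=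
  haveI : NeZero S.m := ⟨S.m_pos.ne'⟩
  (isPrimitiveRoot_rootK S).eq_pow_of_pow_eq_one hx

variable {W : Type*} [AddCommGroup W] [Module S.K W] [FiniteDimensional S.K W]

theorem charpoly_smul_one (x : S.K) :
    (x • (1 : Module.End S.K W)).charpoly = (X - C x) ^ finrank S.K W := by
  have h := LinearMap.charpoly_sub_smul (x • (1 : Module.End S.K W)) x
  rw [sub_self, LinearMap.charpoly_zero] at h
  have h2 := congrArg (fun f : S.K[X] => f.comp (X - C x)) h
  simp only [Polynomial.comp_assoc, add_comp, X_comp, C_comp, sub_add_cancel, comp_X,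
    Polynomial.pow_comp] at h2
  exact h2.symm

theorem brauEnd_smul_one {j : ℕ} (hj : j < S.m) :
    S.brauEnd (S.rootK ^ j • (1 : Module.End S.K W)) = S.root ^ j * (finrank S.K W : ℂ) := by
  set X := S.rootK ^ j • (1 : Module.End S.K W) with hXdef
  have hX : X ^ S.m = 1 := by
    rw [hXdef, _root_.smul_pow, one_pow, ← pow_mul, mul_comm, pow_mul, S.rootK_pow, one_pow, one_smul]
  have hz : ∀ i ∈ Finset.range S.m, i ≠ j → S.eproj X i = 0 := by
    intro i hi hij
    have h := S.mul_eproj hX (Finset.mem_range.1 hi)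
    rw [hXdef, smul_mul_assoc, one_mul] at h
    have h1 : (S.rootK ^ j - S.rootK ^ i) • S.eproj X i = 0 := by
      rw [sub_smul, hXdef, h, sub_self]
    refine (smul_eq_zero.1 h1).resolve_left fun h2 => hij ?_
    haveI : NeZero S.m := ⟨S.m_pos.ne'⟩
    exact ((isPrimitiveRoot_rootK S).pow_inj hj (Finset.mem_range.1 hi) (sub_eq_zero.1 h2)).symm
  have h0 : S.eproj X j = 1 := by
    conv_rhs => rw [← S.sum_eproj (X := X),
      Finset.sum_eq_single j hz fun h => absurd (Finset.mem_range.2 hj) h]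
  rw [PSys.brauEnd, Finset.sum_eq_single j]
  · rw [h0, Module.End.one_eq_id, LinearMap.range_id, finrank_top]
  · intro i hi hij
    rw [hz i hi hij]
    simp
  · exact fun h => absurd (Finset.mem_range.2 hj) h

/-- The lifted trace is the sum of the lifts of the eigenvalues. -/
theorem brauEnd_eq : ∀ (n : ℕ) {W : Type*} [AddCommGroup W] [Module S.K W]
    [FiniteDimensional S.K W], finrank S.K W = n → ∀ X : Module.End S.K W, X ^ S.m = 1 →
      S.brauEnd X = liftSum (lift S) X := by
  intro n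
  induction n using Nat.strong_induction_on with
  | _ n ih =>
  intro W _ _ _ hn X hX
  rcases Nat.eq_zero_or_pos (finrank S.K W) with h0 | hpos
  · rw [liftSum_of_finrank_zero (lift S) X h0]
    haveI : Subsingleton W := finrank_zero_iff.1 h0
    rw [show X = 1 from Subsingleton.elim _ _, S.brauEnd_one, h0, Nat.cast_zero]
  haveI := S.isAlgClosed
  haveI : Nontrivial W := Module.nontrivial_of_finrank_pos hpos
  obtain ⟨x, hx⟩ := Module.End.exists_eigenvalue X
  obtain ⟨v, hv⟩ := hx.exists_hasEigenvector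
  have hvv : X v = x • v := hv.apply_eq_smul
  have hxm : x ^ S.m = 1 := by
    have h1 := hv.pow_apply S.m
    rw [hX, Module.End.one_apply] at h1
    have h2 : (x ^ S.m - 1) • v = 0 := by rw [sub_smul, one_smul, ← h1, sub_self]
    exact sub_eq_zero.1 ((smul_eq_zero.1 h2).resolve_right hv.2)
  obtain ⟨j, hj, rfl⟩ := exists_pow_eq S hxm
  have hU : ∀ y ∈ Submodule.span S.K {v}, X y ∈ Submodule.span S.K {v} := by
    intro y hy
    obtain ⟨c, rfl⟩ := Submodule.mem_span_singleton.1 hy
    rw [map_smul, hvv]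
    exact Submodule.smul_mem _ _ (Submodule.smul_mem _ _ (Submodule.mem_span_singleton_self v))
  have e1 : (X.restrict hU : Module.End S.K (Submodule.span S.K {v})) = S.rootK ^ j • 1 := by
    refine LinearMap.ext fun y => Subtype.ext ?_
    obtain ⟨c, hc⟩ := Submodule.mem_span_singleton.1 y.2
    simp only [LinearMap.coe_restrict_apply, LinearMap.smul_apply, Module.End.one_apply,
      Submodule.coe_smul]
    rw [← hc, map_smul, hvv, smul_comm]
  have hd := finrank_span_singleton (K := S.K) hv.2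
  have hq : finrank S.K (W ⧸ Submodule.span S.K {v}) < n := by
    have := (Submodule.span S.K {v}).finrank_quotient_add_finrank
    omega
  have hXq : ((Submodule.span S.K {v}).mapQ (Submodule.span S.K {v}) X hU) ^ S.m = 1 := by
    rw [← Submodule.mapQ_pow]
    · refine Submodule.linearMap_qext _ (LinearMap.ext fun y => ?_)
      simp [hX]
  rw [S.brauEnd_split hX _ hU, liftSum_split (lift S) X _ hU, e1, brauEnd_smul_one S hj,
    ih _ hq rfl _ hXq]
  congr 1
  rw [liftSum, charpoly_smul_one, rootSum_pow _ (X_sub_C_ne_zero _), hd]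
  simp only [rootSum, Algebra.algebraMap_self, Polynomial.map_id, roots_X_sub_C,
    Multiset.map_singleton, Multiset.sum_singleton, lift_rootK_pow, Nat.cast_one, mul_one, one_mul]

variable {F : Type*} [Field F] [Finite F] [Algebra F S.K]

/-- An element and its `p'`-part have the same characteristic polynomial. -/
theorem charpoly_pow_e [CharP F p] {k : ℕ} (g : GL (Fin k) F)
    (hfit : S.Fits (GL (Fin k) F)) :
    ((g ^ S.e : GL (Fin k) F) : Matrix (Fin k) (Fin k) F).charpoly
      = (g : Matrix (Fin k) (Fin k) F).charpoly := by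
  classical
  haveI := Fact.mk S.hp
  obtain ⟨a, ha⟩ := S.hq
  have hq : ((g ^ S.e : GL (Fin k) F) : GL (Fin k) F) ^ S.q = g ^ S.q := by
    rw [← pow_mul, mul_comm, pow_mul]
    refine S.he.pow_eq_self ?_
    rw [← pow_mul, mul_comm]
    obtain ⟨i, hi⟩ := hfit
    rw [hi, pow_mul, pow_card_eq_one', one_pow]
  rcases k with _ | k
  · rw [Matrix.charpoly_isEmpty, Matrix.charpoly_isEmpty]
  have key : ∀ A : Matrix (Fin (k + 1)) (Fin (k + 1)) F, A.charpoly ^ (p ^ a) =
      (Matrix.scalar (Fin (k + 1)) ((X : F[X]) ^ (p ^ a)) -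
        (Polynomial.C : F →+* F[X]).mapMatrix (A ^ (p ^ a))).det := by
    intro A
    haveI : CharP (Matrix (Fin (k + 1)) (Fin (k + 1)) F[X]) p := by infer_instance
    rw [Matrix.charpoly, Matrix.charmatrix, ← Matrix.det_pow,
      sub_pow_char_pow_of_commute p a (Matrix.scalar_commute _ (fun r => Commute.all _ r) _),
      ← map_pow, ← map_pow]
  have h1 := key (g : Matrix (Fin (k + 1)) (Fin (k + 1)) F)
  have h2 := key ((g ^ S.e : GL (Fin (k + 1)) F) : Matrix (Fin (k + 1)) (Fin (k + 1)) F)
  rw [← Units.val_pow_eq_pow_val (g ^ S.e) (p ^ a), ← ha, hq, ha, Units.val_pow_eq_pow_val g (p ^ a), ← h1]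
    at h2
  exact iterateFrobenius_inj F[X] p a h2

/-- The lifted eigenvalue sum, twisted by the exponent `a`. -/
noncomputable def theta (a : ℕ) (x : S.K) : ℂ := lift S x ^ a

theorem isGeneralizedCharacter_liftSum [CharP F p] (k : ℕ) (hfit : S.Fits (GL (Fin k) F))
    [Fintype (GL (Fin k) F)] {a : ℕ} (ha : a.Coprime S.m) :
    IsGeneralizedCharacter (GL (Fin k) F)
      (fun g => liftSum (theta S a) (Matrix.toLin' (g : Matrix (Fin k) (Fin k) F))) := by
  classical
  haveI : NeZero S.m := ⟨S.m_pos.ne'⟩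
  obtain ⟨σ, hσ⟩ := CfsgLib.CharDegreesTheory.exists_ringAut_complex S.m a ha
  let ρ : Representation S.K (GL (Fin k) F) (Fin k → S.K) :=
    ((Matrix.toLinAlgEquiv' : Matrix (Fin k) (Fin k) S.K ≃ₐ[S.K] _).toMonoidHom.comp
      ((algebraMap F S.K).mapMatrix.toMonoidHom)).comp (Units.coeHom _)
  obtain ⟨χ, ψ, hχ, hψ, he⟩ := hfit.isGeneralizedCharacter_brau ρ
  refine ⟨_, _, CfsgLib.CharDegreesTheory.isCharacter_ringAut σ hχ,
    CfsgLib.CharDegreesTheory.isCharacter_ringAut σ hψ, funext fun g => ?_⟩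
  have hX : (ρ (S.reg g)) ^ S.m = 1 := hfit.rep_pow ρ g
  have h := congrFun he g
  rw [Pi.sub_apply, PSys.brau, brauEnd_eq S _ rfl _ hX] at h
  simp only [Pi.sub_apply, ← map_sub, ← h]
  have hc : (ρ (S.reg g)).charpoly =
      ((g : Matrix (Fin k) (Fin k) F).charpoly).map (algebraMap F S.K) := by
    rw [← charpoly_pow_e S g hfit, ← Matrix.charpoly_map]
    exact Matrix.charpoly_toLin' _
  have hroots : ∀ x ∈ (((g : Matrix (Fin k) (Fin k) F).charpoly).map (algebraMap F S.K)).roots,
      x ^ S.m = 1 := by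
    intro x hx
    rw [← hc] at hx
    have hev : Module.End.HasEigenvalue (ρ (S.reg g)) x :=
      (Module.End.hasEigenvalue_iff_isRoot_charpoly _ _).2 (mem_roots'.1 hx).2
    obtain ⟨v, hv⟩ := hev.exists_hasEigenvector
    have h1 := hv.pow_apply S.m
    rw [hX, Module.End.one_apply] at h1
    have h2 : (x ^ S.m - 1) • v = 0 := by rw [sub_smul, one_smul, ← h1, sub_self]
    exact sub_eq_zero.1 ((smul_eq_zero.1 h2).resolve_right hv.2)
  rw [liftSum, liftSum, hc, Matrix.charpoly_toLin']
  simp only [rootSum, Algebra.algebraMap_self, Polynomial.map_id, map_multiset_sum,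
    Multiset.map_map]
  refine congrArg Multiset.sum (Multiset.map_congr rfl fun x hx => ?_)
  obtain ⟨j, -, rfl⟩ := exists_pow_eq S (hroots x hx)
  rw [Function.comp_apply, theta, lift_rootK_pow,
    hσ _ (by rw [← pow_mul, mul_comm, pow_mul, S.isPrimitiveRoot_root.pow_eq_one, one_pow])]

end CfsgLib.GLCuspidal
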